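import Cfsg.Agent.H42.FvDefs
import Cfsg.Agent.H34.SSC

/-! Project FV: the Frobenius maps of the group and of the adjoint module. -/

set_option autoImplicit false

namespace Cfsg.Agent.H27.FvFrob

open Cfsg.Lie H37 H40 H34 H29 Module H50.E83 H42.Fv
open scoped Matrix

theorem fr_apply (x : K) : iterateFrobenius K 3 1 x = x ^ 3 := by
  rw [iterateFrobenius_def, pow_one]

theorem frV_eq (v : V) : frV v = iterateFrobenius K 3 1 ∘ v := funext fun _ => (fr_apply _).symm

theorem coe_Ph (g : GK) : ((Ph g).1.1 : Matrix Ix Ix K) =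
    (g.1.1 : Matrix Ix Ix K).map (iterateFrobenius K 3 1) := C8.V.coe_coe_fieldHom _ g

theorem coe_ι (g : G0) : ((ι g).1.1 : Matrix Ix Ix K) =
    (g.1.1 : Matrix Ix Ix (ZMod 3)).map (algebraMap (ZMod 3) K) := C8.V.coe_coe_fieldHom _ g

theorem frob : FrobStmt := by
  have hι : ∀ x, iterateFrobenius K 3 1 x = x ↔ ∃ y, algebraMap (ZMod 3) K y = x := fun x => by
    rw [fr_apply, ← mem_range_of_pow_card, ZMod.card]
  refine ⟨fun g v => ?_, fun g => ⟨fun h => ?_, ?_⟩, fun r v => ?_⟩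
  · rw [act_apply, act_apply, coe_Ph, frV_eq, frV_eq]
    funext i
    exact ((iterateFrobenius K 3 1).map_mulVec _ v i).symm
  · have := C8.pow_mem_range hι (q := 3) (by decide) fr_apply (C8.pow_eq_one_of_inv invE8) h
    rwa [Nat.gcd_one_left, pow_one] at this
  · rintro ⟨g, rfl⟩
    refine Subtype.ext (Units.ext ?_)
    rw [coe_Ph, coe_ι]
    ext i j
    exact (hι _).2 ⟨_, rfl⟩
  · rw [← fr_apply, al, al, map_sum]
    exact Finset.sum_congr rfl fun i _ => by rw [map_mul, map_intCast, fr_apply]; rfl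

end Cfsg.Agent.H27.FvFrob
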