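import Cfsg.Agent.H50.E72Defs

/-!
Project E72 (S5935): elements of order nine on the module of dimension 56.
-/

set_option autoImplicit false

namespace Cfsg.Agent.H27.E72C9

open Cfsg.Agent.H50.E72 Cfsg.Agent.H29 Module Polynomial

/-- The test on the labels. -/
def tst (a : List ℕ) : Prop := cV 9 a 1 = cV 9 a 2 → cV 9 a 2 = cV 9 a 4 → cV 9 a 3 = cV 9 a 6 →
  cL 9 a 1 = cL 9 a 2 → cL 9 a 2 = cL 9 a 4 →
  cV 9 a 0 + (cV 9 a 3 + cV 9 a 6) = 20 ∨ (cV 9 a 0 + (cV 9 a 3 + cV 9 a 6) = 2 ∧ cV 9 a 0 = 0) ∨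
    cV 9 a 0 + (cV 9 a 3 + cV 9 a 6) = 56

instance (a : List ℕ) : Decidable (tst a) := by unfold tst; infer_instance

theorem tab : allAlc [2, 2, 3, 4, 3, 2, 1] 9 (fun a => decide (tst a)) = true := by decide +kernel

theorem finrank_ker_mul {F V : Type} [Field F] [AddCommGroup V] [Module F V] [FiniteDimensional F V]
    (f : End F V) {p q : F[X]} (h : IsCoprime p q) :
    finrank F (LinearMap.ker (aeval f (p * q))) =
      finrank F (LinearMap.ker (aeval f p)) + finrank F (LinearMap.ker (aeval f q)) := by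
  rw [← sup_ker_aeval_eq_ker_aeval_mul_of_coprime f h, ← Submodule.finrank_sup_add_finrank_inf_eq,
    (disjoint_ker_aeval_of_isCoprime f h).eq_bot, finrank_bot, add_zero]

theorem ker_lin {F V : Type} [Field F] [AddCommGroup V] [Module F V] (f : End F V) (a : F) :
    LinearMap.ker (aeval f (X - C a)) = f.eigenspace a := by
  rw [End.eigenspace_def, map_sub, aeval_X, aeval_C, Algebra.algebraMap_eq_smul_one]

theorem fx_cube {n : Type} [Fintype n] [DecidableEq n] (π : G0 →* Matrix n n (ZMod 2)) (g : G0)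
    {ω : K} (h : IsPrimitiveRoot ω 3) :
    fx π (g ^ 3) = mu π g 1 + (mu π g ω + mu π g (ω ^ 2)) := by
  have h1 : ω ≠ 1 := h.ne_one (by norm_num)
  have h0 : ω ≠ 0 := h.ne_zero (by norm_num)
  have h2 : ω ^ 2 ≠ 1 := h.pow_ne_one_of_pos_of_lt (by norm_num) (by norm_num)
  have h3 : ω ≠ ω ^ 2 := fun e => h1 (mul_left_cancel₀ h0 (by rw [← pow_two, ← e, mul_one]))
  have h4 : ω ^ 2 + ω + 1 = 0 := by
    have := h.geom_sum_eq_zero (by norm_num)
    simp only [Finset.sum_range_succ, Finset.sum_range_zero] at this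
    linear_combination this
  have e : (X - C 1 : K[X]) * ((X - C ω) * (X - C (ω ^ 2))) = X ^ 3 - 1 := by
    have a4 := congrArg C h4
    have a3 := congrArg C h.pow_eq_one
    simp only [map_add, map_pow, map_one, map_zero] at a4 a3 ⊢
    linear_combination (X - X ^ 2) * a4 + (X - 1) * a3
  have c := fun {a b : K} (x : a ≠ b) => isCoprime_X_sub_C_of_isUnit_sub (sub_ne_zero.2 x).isUnit
  have := finrank_ker_mul (act π g) ((c h1.symm).mul_right (c h2.symm))
  rw [finrank_ker_mul _ (c h3), e, ker_lin, ker_lin, ker_lin] at this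
  rw [fx, mu, eig, End.eigenspace_def, one_smul, map_pow]
  rw [map_sub, map_pow, aeval_X, map_one] at this
  exact this

theorem eq_one {π : G0 →* M56 (ZMod 2)} (h : Function.Injective π) {g : G0} (e : fx π g = 56) :
    g = 1 := by
  have t : eig π g 1 = ⊤ := Submodule.eq_top_of_finrank_eq (e.trans (by simp))
  refine h (Matrix.map_injective (algebraMap (ZMod 2) K).injective ?_)
  refine Matrix.toLin'.injective (LinearMap.ext fun v => ?_)
  have := (mem_eig π).1 (t.ge (Submodule.mem_top (x := v)))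
  rw [act_apply, one_smul] at this
  simp [this]

theorem c9 (fr : FrobStmt) : C9Stmt := by
  intro π hπ g h9 h3
  have : NeZero ((9 : ℕ) : K) := ⟨fun h => absurd ((CharP.cast_eq_zero_iff K 2 9).1 h) (by norm_num)⟩
  obtain ⟨z, hz⟩ := HasEnoughRootsOfUnity.exists_primitiveRoot K 9
  obtain ⟨ζ, rfl⟩ := hz.isUnit (by norm_num)
  obtain ⟨a, hl, hs, ha⟩ := hπ.tor g 9 ζ (by decide) (IsPrimitiveRoot.coe_units_iff.1 hz) h9
  have f : ∀ (n : Type) [Fintype n] [DecidableEq n] (π : G0 →* Matrix n n (ZMod 2)) (k : ℕ),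
      mu π g ((ζ ^ k : Kˣ) : K) = mu π g ((ζ ^ (k * 2) : Kˣ) : K) := fun n _ _ π k => by
    have := fr n π Unit (fun _ => g) fun _ => ((ζ ^ k : Kˣ) : K)
    rw [iInf_const, iInf_const] at this
    rw [pow_mul, Units.val_pow_eq_pow_val _ 2]
    exact this
  have v : ∀ k, cV 9 a k = cV 9 a (k * 2) := fun k => by rw [← (ha _).1, ← (ha _).1, f]
  have l : ∀ k, cL 9 a k = cL 9 a (k * 2) := fun k => by rw [← (ha _).2, ← (ha _).2, f]
  have e0 : fx π g = cV 9 a 0 := by rw [← (ha 0).1, pow_zero, Units.val_one, fx]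
  have e : fx π (g ^ 3) = cV 9 a 0 + (cV 9 a 3 + cV 9 a 6) := by
    rw [fx_cube π g (hz.pow (by norm_num) (show 9 = 3 * 3 from rfl)), ← e0, ← (ha _).1, ← (ha _).1,
      ← pow_mul]
    rfl
  have := of_decide_eq_true (allAlc_spec tab (by decide) hl hs) (v 1) (v 2) (v 3) (l 1) (l 2)
  rw [← e, ← e0] at this
  rcases this with h | h | h
  · exact .inl h
  · exact .inr h
  · exact absurd (eq_one hπ.inj h) h3

end Cfsg.Agent.H27.E72C9
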