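import Mathlib
import Cfsg.Agent.H6.E82Defs

/-! The action of the generators of `SL₂(64)` on the monomials. -/

set_option autoImplicit false

namespace Cfsg.Agent.H27.E82Mona

open Cfsg.Agent.H6.E82 Cfsg.Agent.H82 Cfsg.Agent.H50.SL2S Finset
open scoped MatrixGroups

theorem parity : ∀ j < 64, ∀ i < j + 1,
    j.factorial / (i.factorial * (j - i).factorial) % 2 = if i &&& j = i then 1 else 0 := by
  decide +kernel

theorem cast_choose {j i : ℕ} (hj : j < 64) (hi : i < j + 1) :
    ((j.choose i : ℕ) : K) = if i &&& j = i then 1 else 0 := by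
  have h := parity j hj i hi
  rw [← Nat.choose_eq_factorial_div_factorial (by omega)] at h
  rw [← Nat.mod_add_div (j.choose i) 2, h]
  have h2 : (2 : K) = 0 := CharP.cast_eq_zero K 2
  split_ifs <;> simp [h2]

theorem pow63 {s : F} (hs : s ≠ 0) : s ^ 63 = 1 := by
  have := FiniteField.pow_card_sub_one_eq_one s hs
  rwa [card_F] at this

theorem reg_mono (p : Par) (g : SL) (r j : ℕ) (x : SL) : reg g (mono p r j) x =
    p.κ ((x * g) 1 0) ^ (r - j) * p.κ ((x * g) 1 1) ^ j := rfl

theorem mono_apply (p : Par) (r j : ℕ) (x : SL) : mono p r j x =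
    p.κ (x 1 0) ^ (r - j) * p.κ (x 1 1) ^ j := rfl

theorem mona : MonaStmt := by
  intro p r hr j hj
  have h2 : (2 : K) = 0 := CharP.cast_eq_zero K 2
  refine ⟨fun t => funext fun x => ?_, fun s hs => funext fun x => ?_, funext fun x => ?_⟩
  · rw [reg_mono, Finset.sum_apply]
    simp only [Pi.smul_apply, mono_apply, smul_eq_mul, ent, map_add, map_mul]
    rw [add_comm, add_pow, mul_sum, JS, sum_filter]
    refine sum_congr rfl fun i hi => ?_
    have hi' := mem_range.1 hi
    rw [cast_choose (by omega) hi']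
    split_ifs
    · rw [show r - i = (r - j) + (j - i) by omega]
      ring
    · simp
  · rw [reg_mono, Pi.smul_apply, mono_apply]
    simp only [smul_eq_mul, ent, map_mul]
    have h1 : p.κ s ^ 63 = 1 := by rw [← map_pow, pow63 hs, map_one]
    have h3 : p.κ s⁻¹ = p.κ s ^ 62 := by
      rw [map_inv₀]
      exact inv_eq_of_mul_eq_one_right (by rw [← pow_succ', h1])
    rw [h3, show r + 61 * j = (r - j) + 62 * j by omega]
    ring
  · rw [reg_mono, mono_apply]
    simp only [ent, ent2, CharTwo.neg_eq]
    rw [show r - (r - j) = j by omega, mul_comm]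

end Cfsg.Agent.H27.E82Mona
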