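import Cfsg.Agent.H98.GbL

/-! Small special linear groups inside a defect group. -/

set_option autoImplicit false
open Cfsg Finset
open scoped MatrixGroups Kronecker

namespace Cfsg.Agent.H27.GbExc

open Cfsg.Agent.H98.GB

universe u

section
variable {F : Type u} [Field F] {m d n : ℕ} (e : Fin m × Fin d ≃ Fin n)

/-- The tensor product with the identity matrix. -/
def kr : Matrix (Fin m) (Fin m) F →* Matrix (Fin n) (Fin n) F where
  toFun x := Matrix.reindexAlgEquiv F F e (x ⊗ₖ (1 : Matrix (Fin d) (Fin d) F))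
  map_one' := by rw [Matrix.one_kronecker_one, map_one]
  map_mul' x y := by rw [← map_mul, ← Matrix.mul_kronecker_mul, mul_one]

theorem kr_apply (x : Matrix (Fin m) (Fin m) F) :
    kr e x = Matrix.reindexAlgEquiv F F e (x ⊗ₖ (1 : Matrix (Fin d) (Fin d) F)) := rfl

theorem kr_inj (hd : 0 < d) : Function.Injective (kr (F := F) e) := fun x y h => by
  rw [kr_apply, kr_apply] at h
  have h' := (Matrix.reindexAlgEquiv F F e).injective h
  ext i j
  have := congrFun (congrFun h' (i, ⟨0, hd⟩)) (j, ⟨0, hd⟩)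
  simpa using this

theorem kr_det (x : Matrix (Fin m) (Fin m) F) : (kr e x).det = x.det ^ d := by
  rw [kr_apply, Matrix.coe_reindexAlgEquiv, Matrix.det_reindex_self, Matrix.det_kronecker]
  simp

theorem kr_comm (x : Matrix (Fin m) (Fin m) F) (g : Matrix (Fin d) (Fin d) F) :
    kr e x * Matrix.reindex e e ((1 : Matrix (Fin m) (Fin m) F) ⊗ₖ g) =
      Matrix.reindex e e ((1 : Matrix (Fin m) (Fin m) F) ⊗ₖ g) * kr e x := by
  rw [kr_apply, ← Matrix.coe_reindexAlgEquiv F F, ← map_mul, ← map_mul, ← Matrix.mul_kronecker_mul,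
    ← Matrix.mul_kronecker_mul, mul_one, one_mul, mul_one, one_mul]

/-- The embedding of the special linear group. -/
def io : SL(m, F) →* GL (Fin n) F :=
  (Units.map (kr e)).comp Matrix.SpecialLinearGroup.toGL

theorem io_val (x : SL(m, F)) : (io e x).1 = kr e x.1 := rfl

end

theorem exc (hR : R2LStmt.{u}) (hS : R2SStmt.{u}) (hL : LABStmt.{u}) : EXCStmt.{u} := by
  intro F _ _ _ C hp Γ hΓ m n hm hn hn0 B hB hBX D hD P hP
  have hd := (hL F C).dg_pos Γ
  obtain ⟨g', hg'⟩ := hR F C hp Γ hΓ ((Nat.le_mul_of_pos_right _ hm).trans (hn ▸ hn0))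
  obtain ⟨hX, g, e, hg, hc⟩ := hg' m n hm hn hn0
  obtain ⟨χ, hχ⟩ := H17.block_nonempty C.hM.2.1 hB
  rw [← H17.block_eq_of_mem C.hM.2.1 hB hX hχ (hBX hχ)] at hc
  obtain ⟨x, hx⟩ := hS _ C.p C.M C.hM B hB D hD g hc (P.map (io e)) (hP.map _) (by
    rintro _ ⟨y, -, rfl⟩
    refine Units.ext ?_
    rw [Units.val_mul, Units.val_mul, hg, io_val]
    exact kr_comm e _ _)
  refine ⟨(MulAut.conj x).toMonoidHom.comp ((io e).comp P.subtype), fun a b h => ?_,
    fun a => ⟨hx _ ⟨a.1, a.2, rfl⟩, ?_⟩⟩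
  · have h1 : io e a.1 = io e b.1 := (MulAut.conj x).injective h
    exact Subtype.ext (Subtype.ext (kr_inj e hd (congrArg Units.val h1)))
  · have h1 : Matrix.GeneralLinearGroup.det (io e a.1) = 1 := Units.ext (by
      rw [Matrix.GeneralLinearGroup.val_det_apply, io_val, kr_det, a.1.2, one_pow, Units.val_one])
    show Matrix.GeneralLinearGroup.det (x * io e a.1 * x⁻¹) = 1
    rw [map_mul, map_mul, h1, mul_one, ← map_mul, mul_inv_cancel, map_one]

end Cfsg.Agent.H27.GbExc
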