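import Cfsg.Agent.H97.JnDefs
import Cfsg.Agent.H33.J4Odd5
import Cfsg.Agent.S5563
import Cfsg.Agent.S5564
import Cfsg.Agent.S5572
import Cfsg.Agent.S5629

/-! Elements of order five and eleven in a group of Janko-four type. -/

set_option autoImplicit false

namespace Cfsg.Agent.H97.JM

open Subgroup H33.J4O

universe u

theorem qY5 : Y5.{u} := fun G _ _ _ hG ⟨z, hz⟩ => by
  obtain ⟨h1, h2⟩ := card_hna hG ⟨z, hz⟩ (S5629.result hG z hz)
  obtain ⟨L, Γ, hL⟩ := exists_glob hG ⟨z, hz⟩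
    (fun z P h => (S5563.result hG z P h).2.2.2.2) (S5564.result hG ⟨z, hz⟩) h1 h2
  refine ⟨fun f hf => ?_, fun y hy => L11.cent11 Γ hy⟩
  obtain ⟨a, ha, a5⟩ := exists_ord (A := centralizer {L.z}) Nat.prime_five (by rw [Γ.cH]; norm_num)
  obtain ⟨k1, -, -, k2⟩ := S5572.result hG L.z hL (zpowers a) (by rw [Nat.card_zpowers, a5])
    (zpowers_le.2 ha)
  obtain ⟨g, hg⟩ := conj_top Nat.prime_five k1 a5 (b := f) (hf ▸ pow_orderOf_eq_one f)
  rw [← conj_norm g f, eq_of_le_of_card_ge (zpowers_le.2 hg)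
    (by rw [Nat.card_zpowers, Nat.card_zpowers, orderOf_cj, a5, hf]), k2]
  norm_num

end Cfsg.Agent.H97.JM
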