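import Cfsg.Agent.H50.L81Defs
import Cfsg.Agent.H29.ASTab8

/-! The sum of the squares of an additive function over the roots of `E₈`. -/

set_option autoImplicit false

namespace Cfsg.Agent.H27.L81Qf

open Cfsg.Lie H34 H29 Finset H50.E83 H50.L81

def mt : List (List ℕ) :=
  [[4, 5, 7, 10, 8, 6, 4, 2], [5, 8, 10, 15, 12, 9, 6, 3], [7, 10, 14, 20, 16, 12, 8, 4],
    [10, 15, 20, 30, 24, 18, 12, 6], [8, 12, 16, 24, 20, 15, 10, 5], [6, 9, 12, 18, 15, 12, 8, 4],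
    [4, 6, 8, 12, 10, 8, 6, 3], [2, 3, 4, 6, 5, 4, 3, 2]]

theorem key : ∀ i < 8, ∀ j < 8, ∑ r ∈ range 240, gt rcE8 r i * gt rcE8 r j =
    60 * (((mt.getD i []).getD j 0 : ℕ) : ℤ) := by decide +kernel

theorem qfs : QfStmt := fun a => by
  have h1 : ∀ r : Rt, vN C8 a r = ∑ j ∈ range 8, gt rcE8 r j * (a.getD j 0 : ℕ) := fun r => by
    simp only [vN, rc_eq C8 tabOKE8]
    exact (sum_range fun j => gt rcE8 r j * (a.getD j 0 : ℕ)).symm
  have h2 : ∑ r : Rt, vN C8 a r ^ 2 =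
      ∑ r ∈ range 240, (∑ j ∈ range 8, gt rcE8 r j * (a.getD j 0 : ℕ)) ^ 2 := by
    simp only [h1]
    exact (sum_range fun r => (∑ j ∈ range 8, gt rcE8 r j * (a.getD j 0 : ℕ)) ^ 2).symm
  rw [h2, qf, Nat.cast_sum, mul_sum]
  simp only [sq, sum_mul_sum]
  rw [sum_comm]
  refine sum_congr rfl fun i hi => ?_
  rw [sum_comm, Nat.cast_sum, mul_sum]
  refine sum_congr rfl fun j hj => ?_
  rw [Nat.cast_mul, Nat.cast_mul, ← mul_assoc, ← mul_assoc]
  refine Eq.trans ?_ (congrArg (· * _ * _) (key i (mem_range.1 hi) j (mem_range.1 hj)))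
  rw [sum_mul, sum_mul]
  exact sum_congr rfl fun r _ => by ring

end Cfsg.Agent.H27.L81Qf
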