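import Cfsg.Agent.H93.L8Defs

/-! Project CY, chapter L8: the index of the pointwise stabiliser of a line. -/

set_option autoImplicit false

namespace Cfsg.Agent.H27.L8Idx

open Subgroup MulAction Cfsg.Agent.H11.Cy Cfsg.Agent.H93.L8

theorem orb {G : Type} [Group G] {Ω : Type} [MulAction G Ω] (X : Subgroup G) (x : Ω) :
    Nat.card ↥(X ⊓ stabilizer G x) * {z | ∃ g ∈ X, g • x = z}.ncard = Nat.card X := by
  have h := (stabilizer X x).card_mul_index
  rw [index_stabilizer] at h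
  rw [← h]
  congr 1
  · exact Nat.card_congr ⟨fun g => ⟨⟨g.1, g.2.1⟩, g.2.2⟩, fun g => ⟨g.1.1, g.1.2, g.2⟩,
      fun _ => rfl, fun _ => rfl⟩
  · congr 1
    exact Set.ext fun z => ⟨fun ⟨g, hg, e⟩ => ⟨⟨g, hg⟩, e⟩, fun ⟨g, e⟩ => ⟨g.1, g.2, e⟩⟩

theorem idx : IdxStmt := by
  intro G _ _ Ω _ _ p A st p3 ep ty x y hxy
  obtain ⟨f8, hl, ko⟩ := ty x y hxy
  have hx : x ∈ Ln A x y := (le_sup_left : A x ≤ Fl A x y)
  have hy : y ∈ Ln A x y := (le_sup_right : A y ≤ Fl A x y)
  have KH : Kl A x y ≤ Hs G x y := fun k hk =>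
    ⟨(ep.kfix x y hxy k).1 hk x hx, (ep.kfix x y hxy k).1 hk y hy⟩
  have HN : Hs G x y ≤ normalizer (Fl A x y : Set G) := fun g hg => by
    refine mem_normalizer_fintype (S := (Fl A x y : Set G)) fun f hf => ?_
    have h1 : g • x = x := hg.1
    have h2 : g • y = y := hg.2
    have : Fl A x y ≤ (Fl A x y).comap (MulAut.conj g).toMonoidHom :=
      sup_le (fun a ha => mem_sup_left (h1 ▸ st.eqv g x a ha))
        (fun a ha => mem_sup_right (h2 ▸ st.eqv g y a ha))
    exact this hf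
  -- the action of `H` on `A x`
  obtain ⟨i, hi, cH⟩ : ∃ i, i ∣ 2 ∧ Nat.card (Hs G x y) = Nat.card (Kl A x y) * i := by
    have hA : Hs G x y ≤ normalizer (A x : Set G) := fun g hg => (ep.nA x g).2 hg.1
    let f := (A x).normalizerMonoidHom.comp (inclusion hA)
    have hk : f.ker = (Kl A x y).subgroupOf (Hs G x y) := by
      ext g
      rw [MonoidHom.mem_ker, mem_subgroupOf]
      refine ⟨fun h => ep.eps x y hxy g.1 g.2 fun a ha => ?_, fun h => MulEquiv.ext fun a =>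
        Subtype.ext ?_⟩
      · have : g.1 * a * g.1⁻¹ = a :=
          congrArg Subtype.val (congrArg (fun ψ : MulAut (A x) => ψ ⟨a, ha⟩) h)
        exact (mul_inv_eq_iff_eq_mul.1 this).symm
      · change g.1 * a.1 * g.1⁻¹ = a.1
        rw [← h a.1 (mem_sup_left a.2), mul_inv_cancel_right]
    have : Fact p.Prime := ⟨st.pp⟩
    have : IsCyclic (A x) := isCyclic_of_prime_card (st.card x)
    refine ⟨f.ker.index, ?_, ?_⟩
    · rw [index_ker]
      have := card_subgroup_dvd_card f.range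
      rwa [IsCyclic.card_mulAut, st.card, p3] at this
    · rw [← f.ker.card_mul_index, hk, Nat.card_congr (subgroupOfEquivOfLe KH).toEquiv]
  -- the order of `N`
  have cN : Nat.card (normalizer (Fl A x y : Set G)) = Nat.card (Hs G x y) * 27 * 28 := by
    have o1 : {z | ∃ g ∈ normalizer (Fl A x y : Set G), g • x = z} = Ln A x y := by
      refine Set.ext fun z => ⟨?_, fun hz => ?_⟩
      · rintro ⟨g, hg, rfl⟩
        exact (ep.nrm x y hxy g).1 hg x hx
      · by_cases e : z = x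
        · exact ⟨1, one_mem _, by rw [one_smul, e]⟩
        · obtain ⟨g, hg, h1, -⟩ := ep.tr x y hxy x hx y hy z hz x hx hxy e
          exact ⟨g, hg, h1⟩
    have o2 : {z | ∃ g ∈ normalizer (Fl A x y : Set G) ⊓ stabilizer G x, g • y = z} =
        Ln A x y \ {x} := by
      refine Set.ext fun z => ⟨?_, fun hz => ?_⟩
      · rintro ⟨g, hg, rfl⟩
        exact ⟨(ep.nrm x y hxy g).1 hg.1 y hy, fun e =>
          hxy (MulAction.injective g ((show g • x = x from hg.2).trans (Eq.symm e)))⟩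
      · obtain ⟨g, hg, h1, h2⟩ := ep.tr x y hxy x hx y hy x hx z hz.1 hxy (Ne.symm hz.2)
        exact ⟨g, ⟨hg, h1⟩, h2⟩
    rw [← orb _ x, ← orb (_ ⊓ stabilizer G x) y, o1, o2, Set.ncard_sdiff_singleton_of_mem hx, hl,
      inf_assoc, inf_eq_right.2 HN]
  have dj : ∀ f ∈ Fl A x y, f ∈ Kl A x y → f = 1 := by
    have := f8.simple
    have nm : ((Kl A x y).subgroupOf (Fl A x y)).Normal := ⟨fun k hk f => by
      have : f * k * f⁻¹ = k := Subtype.ext (by
        change f.1 * k.1 * f.1⁻¹ = k.1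
        rw [show f.1 * k.1 = k.1 * f.1 from hk f.1 f.2, mul_inv_cancel_right])
      rwa [this]⟩
    rcases nm.eq_bot_or_eq_top with e | e
    · exact fun f hf hk => disjoint_def.1 (subgroupOf_eq_bot.1 e) hk hf
    · have := ko.of_dvd_nat (f8.card ▸ card_dvd_of_le (subgroupOf_eq_top.1 e))
      exact absurd this (by decide)
  let ψ : Fl A x y × Kl A x y →* G := (Fl A x y).subtype.noncommCoprod (Kl A x y).subtype
    fun f k => k.2 f.1 f.2
  have inj : Function.Injective ψ := (injective_iff_map_eq_one _).2 fun q hq => by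
    have h1 : q.1.1 * q.2.1 = 1 := hq
    have h2 := dj _ q.1.2 (eq_inv_of_mul_eq_one_left h1 ▸ inv_mem q.2.2)
    rw [h2, one_mul] at h1
    exact Prod.ext (Subtype.ext h2) (Subtype.ext h1)
  have cM : Nat.card ψ.range = 504 * Nat.card (Kl A x y) := by
    rw [← Nat.card_congr (MonoidHom.ofInjective inj).toEquiv, Nat.card_prod, f8.card]
  have MN : ψ.range ≤ normalizer (Fl A x y : Set G) := by
    rintro _ ⟨q, rfl⟩
    exact mul_mem (le_normalizer q.1.2) (HN (KH q.2.2))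
  have kp : 0 < Nat.card (Kl A x y) := Nat.card_pos
  have i2 : i = 2 := by
    have := card_dvd_of_le MN
    rw [cM, cN, cH, show Nat.card (Kl A x y) * i * 27 * 28 = 756 * i * Nat.card (Kl A x y) by ring,
      Nat.mul_dvd_mul_iff_right kp] at this
    rcases (Nat.dvd_prime Nat.prime_two).1 hi with rfl | rfl
    · exact absurd this (by decide)
    · rfl
  subst i2
  refine ⟨by rw [cH, mul_comm], fun g hg ⟨j, hj⟩ => ?_⟩
  have nm : (ψ.range.subgroupOf (normalizer (Fl A x y : Set G))).Normal := ⟨fun m ⟨q, hq⟩ n => by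
    have h1 : n.1 * q.1.1 * n.1⁻¹ ∈ Fl A x y := (mem_normalizer_iff.1 n.2 _).1 q.1.2
    have h2 : n.1 * q.2.1 * n.1⁻¹ ∈ Kl A x y := fun f hf => by
      have := q.2.2 _ ((mem_normalizer_iff''.1 n.2 f).1 hf)
      calc f * (n.1 * q.2.1 * n.1⁻¹) = n.1 * (n.1⁻¹ * f * n.1 * q.2.1) * n.1⁻¹ := by group
        _ = n.1 * q.2.1 * n.1⁻¹ * f := by rw [this]; group
    refine ⟨(⟨_, h1⟩, ⟨_, h2⟩), ?_⟩
    have hq' : q.1.1 * q.2.1 = m.1 := hq
    change n.1 * q.1.1 * n.1⁻¹ * (n.1 * q.2.1 * n.1⁻¹) = n.1 * m.1 * n.1⁻¹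
    rw [← hq']
    group⟩
  have ix : (ψ.range.subgroupOf (normalizer (Fl A x y : Set G))).index = 3 := by
    have := (ψ.range.subgroupOf (normalizer (Fl A x y : Set G))).card_mul_index
    rw [Nat.card_congr (subgroupOfEquivOfLe MN).toEquiv, cM, cN, cH] at this
    exact Nat.eq_of_mul_eq_mul_left (Nat.mul_pos (by norm_num : 0 < 504) kp) (this.trans (by ring))
  have g3 : g ^ 3 ∈ ψ.range := by
    have := (ψ.range.subgroupOf (normalizer (Fl A x y : Set G))).pow_index_mem ⟨g, hg⟩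
    rwa [ix] at this
  obtain ⟨q, rfl⟩ : g ∈ ψ.range := zpowers_le.2 g3 (mem_zpowers_pow_iff.2
    (((show Nat.Coprime 3 2 by decide).pow_right j).coprime_dvd_right (orderOf_dvd_of_pow_eq_one hj)))
  have h1 : q.2 ^ 2 ^ j = 1 := congrArg Prod.snd (inj ((map_pow ψ q _).trans (hj.trans ψ.map_one.symm)))
  have h2 : q.2 = 1 := orderOf_eq_one_iff.1 (Nat.eq_one_of_dvd_coprimes
    ((Nat.coprime_two_left.2 ko).pow_left j) (orderOf_dvd_of_pow_eq_one h1) (orderOf_dvd_natCard _))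
  change q.1.1 * q.2.1 ∈ _
  rw [h2]
  exact mul_mem q.1.2 (one_mem _)

end Cfsg.Agent.H27.L8Idx
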