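import Cfsg.Agent.H31.ElZa
import Cfsg.Agent.H11.CyLp

/-! A Zassenhaus group of degree divisible by `4`: an abstract lemma. -/

set_option autoImplicit false

namespace Cfsg.Agent.H27.LpB2a

open Subgroup MulAction

theorem mat_comm {F : Type} [Field F] {g h k : Matrix (Fin 2) (Fin 2) F} (h1 : g * h = h * g)
    (h2 : g * k = k * g) (hn : ¬ (g 0 1 = 0 ∧ g 1 0 = 0 ∧ g 0 0 = g 1 1)) : h * k = k * h := by
  have a := fun i j => congrFun (congrFun h1 i) j
  have b := fun i j => congrFun (congrFun h2 i) j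
  have a1 := a 0 0; have a2 := a 0 1; have a3 := a 1 0
  have b1 := b 0 0; have b2 := b 0 1; have b3 := b 1 0
  simp only [Matrix.mul_apply, Fin.sum_univ_two] at a1 a2 a3 b1 b2 b3
  have k1 : h 0 1 * k 1 0 = k 0 1 * h 1 0 ∧ (h 0 0 - h 1 1) * k 0 1 = (k 0 0 - k 1 1) * h 0 1 ∧
      (h 0 0 - h 1 1) * k 1 0 = (k 0 0 - k 1 1) * h 1 0 := by
    by_cases c1 : g 0 1 = 0
    · by_cases c2 : g 1 0 = 0
      · have c3 : g 0 0 - g 1 1 ≠ 0 := fun e => hn ⟨c1, c2, sub_eq_zero.1 e⟩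
        refine ⟨mul_left_cancel₀ c3 ?_, mul_left_cancel₀ c3 ?_, mul_left_cancel₀ c3 ?_⟩ <;> grind
      · refine ⟨mul_left_cancel₀ c2 ?_, mul_left_cancel₀ c2 ?_, mul_left_cancel₀ c2 ?_⟩ <;> grind
    · refine ⟨mul_left_cancel₀ c1 ?_, mul_left_cancel₀ c1 ?_, mul_left_cancel₀ c1 ?_⟩ <;> grind
  obtain ⟨k1, k2, k3⟩ := k1
  ext i j
  fin_cases i <;> fin_cases j <;> simp [Matrix.mul_apply, Fin.sum_univ_two] <;> grind

theorem eq_one_of_odd {G : Type*} [Group G] {a : G} {n : ℕ} (hn : Odd n) (h1 : a ^ n = 1)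
    (h2 : a * a = 1) : a = 1 := by
  obtain ⟨m, rfl⟩ := hn
  rwa [pow_succ, pow_mul, pow_two, h2, one_pow, one_mul] at h1

theorem psl_comm {F : Type} [Field F] {a b c : Matrix.ProjectiveSpecialLinearGroup (Fin 2) F} {n : ℕ}
    (hn : Odd n) (h0 : a ≠ 1) (h1 : a ^ n = 1) (hb : Commute a b) (hc : Commute a c) :
    Commute b c := by
  have z2 : ∀ ζ ∈ center (Matrix.SpecialLinearGroup (Fin 2) F), ζ * ζ = 1 := fun ζ hζ => by
    obtain ⟨r, hr, e⟩ := Matrix.SpecialLinearGroup.mem_center_iff.1 hζ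
    refine Subtype.ext ?_
    change ζ.1 * ζ.1 = 1
    rw [← e, ← map_mul, ← pow_two, show r ^ 2 = 1 by simpa using hr, map_one]
  obtain ⟨g, rfl⟩ := QuotientGroup.mk_surjective a
  have gn : g ^ n ∈ center (Matrix.SpecialLinearGroup (Fin 2) F) :=
    (QuotientGroup.eq_one_iff _).1 h1
  have e : ((g ^ n * g : Matrix.SpecialLinearGroup (Fin 2) F) :
      Matrix.ProjectiveSpecialLinearGroup (Fin 2) F) = g := by
    rw [QuotientGroup.mk_mul, (QuotientGroup.eq_one_iff _).2 gn, one_mul]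
  have g1 : (g ^ n * g) ^ n = 1 := by
    obtain ⟨m, hm⟩ := hn
    rw [← pow_succ, ← pow_mul, show (n + 1) * n = (n + n) * (m + 1) by rw [hm]; ring, pow_mul,
      pow_add g n n, z2 _ gn, one_pow]
  rw [← e] at h0 hb hc
  generalize g ^ n * g = g' at h0 hb hc g1
  have lift : ∀ h : Matrix.SpecialLinearGroup (Fin 2) F,
      Commute (g' : Matrix.ProjectiveSpecialLinearGroup (Fin 2) F) h → g' * h = h * g' := fun h hh => by
    have k : (h * g')⁻¹ * (g' * h) ∈ center (Matrix.SpecialLinearGroup (Fin 2) F) :=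
      QuotientGroup.eq.1 hh.eq.symm
    have k1 : h⁻¹ * g' * h⁻¹⁻¹ = g' * ((h * g')⁻¹ * (g' * h)) := by group
    have k2 : (h⁻¹ * g' * h⁻¹⁻¹) ^ n = 1 := by rw [conj_pow, g1]; group
    rw [k1, Commute.mul_pow (mem_center_iff.1 k g'), g1, one_mul] at k2
    exact (inv_mul_eq_one.1 (eq_one_of_odd hn k2 (z2 _ k))).symm
  obtain ⟨h, rfl⟩ := QuotientGroup.mk_surjective b
  obtain ⟨k, rfl⟩ := QuotientGroup.mk_surjective c
  have := mat_comm (congrArg Subtype.val (lift h hb)) (congrArg Subtype.val (lift k hc)) fun hh =>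
    h0 ((QuotientGroup.eq_one_iff _).2 (mem_center_iff.2 fun t => Subtype.ext (by
      change t.1 * g'.1 = g'.1 * t.1
      ext i j
      fin_cases i <;> fin_cases j <;>
        simp [Matrix.mul_apply, Fin.sum_univ_two, hh.1, hh.2.1, hh.2.2, mul_comm])))
  exact congrArg QuotientGroup.mk (show h * k = k * h from Subtype.ext this)

theorem core {X : Type} [Group X] [Finite X] {Φ : Type} [Finite Φ] [MulAction X Φ] {z f s k : X}
    {a b : Φ} {n : ℕ} (zo : orderOf z = 2) (zc : ∀ g, Commute g z) (zt : ∀ u : Φ, z • u = u)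
    (tr : ∀ c d : Φ, c ≠ d → ∃ g : X, g • a = c ∧ g • b = d)
    (three : ∀ (g : X) (u : Φ), g • a = a → g • b = b → u ≠ a → u ≠ b → g • u = u → g ∈ zpowers z)
    (h4 : 4 ∣ Nat.card Φ) (ab : a ≠ b) (fa : f • a = a) (fb : f • b = b) (f4 : f ^ 4 ≠ 1)
    (inv : ∀ t : X, t • a = b → t • b = a → t * f ^ 4 * t⁻¹ = f ^ 4 → f ^ 4 * f ^ 4 = 1)
    (s2 : s * s = 1) (sa : s • a = b) (sb : s • b = a) (sf : ∀ u : Φ, s • u ≠ u) (k1 : k ≠ 1)
    (hn : Odd n) (kn : k ^ n = 1) (ks : Commute k s) (kf : Commute k f) : False := by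
  classical
  have := Fintype.ofFinite Φ
  have z2 : z * z = 1 := by rw [← pow_two, ← zo, pow_orderOf_eq_one]
  have z1 : z ≠ 1 := fun e => by rw [e, orderOf_one] at zo; omega
  have mz : ∀ g ∈ zpowers z, g = 1 ∨ g = z := by
    rintro _ ⟨m, rfl⟩
    have h2 : z ^ (2 : ℤ) = 1 := by rw [zpow_two, z2]
    rcases Int.even_or_odd' m with ⟨j, rfl | rfl⟩
    · left; simp [zpow_mul, h2]
    · right; simp [zpow_add, zpow_mul, h2]
  have yt : ∀ g ∈ zpowers z, ∀ u : Φ, g • u = u := fun g hg u => by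
    rcases mz g hg with rfl | rfl
    exacts [one_smul _ _, zt u]
  have w2 : 2 ≤ Nat.card Φ := Finite.one_lt_card_iff_nontrivial.2 ⟨a, b, ab⟩
  let σ : X →* ℤˣ := Equiv.Perm.sign.comp (toPermHom X Φ)
  have sg : ∀ g : X, g * g ∈ zpowers z → σ g =
      (-1) ^ ((Nat.card Φ - {u : Φ | g • u = u}.ncard) / 2) := fun g hg => by
    have := Equiv.Perm.sign_of_pow_two_eq_one (σ := toPermHom X Φ g) (by
      rw [← map_pow, pow_two]
      exact Equiv.ext fun u => yt _ hg u)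
    rw [← Nat.card_eq_fintype_card, ← Nat.card_eq_fintype_card] at this
    exact this
  have so : ∀ (g : X) (m : ℕ), Odd m → g ^ m = 1 → σ g = 1 := fun g m hm h =>
    eq_one_of_odd hm (by rw [← map_pow, h, map_one]) (Int.units_mul_self _)
  have sz : σ z = 1 := by
    rw [sg z (by rw [z2]; exact one_mem _), show {u : Φ | z • u = u} = Set.univ from
      Set.eq_univ_of_forall zt, Set.ncard_univ]
    simp
  have ss : σ s = 1 := by
    rw [sg s (by rw [s2]; exact one_mem _), show {u : Φ | s • u = u} = ∅ from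
      Set.eq_empty_of_forall_notMem sf, Set.ncard_empty]
    exact Even.neg_one_pow (by rw [Nat.even_iff]; omega)
  obtain ⟨X1, hk, htr, hev⟩ : ∃ X1 : Subgroup X, σ.ker ≤ X1 ∧
      (∀ c d : Φ, c ≠ d → ∃ g ∈ X1, g • a = c ∧ g • b = d) ∧
      ∀ h ∈ X1, h • a = a → h • b = b → σ h = 1 := by
    by_cases c : ∃ h : X, h • a = a ∧ h • b = b ∧ σ h = -1
    · obtain ⟨h, h1, h2, h3⟩ := c
      refine ⟨σ.ker, le_rfl, fun c d hcd => ?_, fun h hh _ _ => hh⟩
      obtain ⟨g, g1, g2⟩ := tr c d hcd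
      rcases Int.units_eq_one_or (σ g) with e | e
      · exact ⟨g, e, g1, g2⟩
      · exact ⟨g * h, by rw [MonoidHom.mem_ker, map_mul, e, h3]; simp, by rw [mul_smul, h1, g1],
          by rw [mul_smul, h2, g2]⟩
    · exact ⟨⊤, le_top, fun c d hcd => (tr c d hcd).imp fun g hg => ⟨trivial, hg⟩, fun h _ h1 h2 =>
        (Int.units_eq_one_or (σ h)).resolve_right fun e => c ⟨h, h1, h2, e⟩⟩
  let Y : Subgroup X1 := (zpowers z).subgroupOf X1
  have cY : Nat.card Y = 2 := by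
    rw [Nat.card_congr (subgroupOfEquivOfLe (zpowers_le.2 (hk sz))).toEquiv, Nat.card_zpowers, zo]
  have nY : Y.Normal := ⟨fun y hy g => by
    change g.1 * y.1 * g.1⁻¹ ∈ zpowers z
    rcases mz _ hy with e | e <;> rw [show y.1 = _ from e]
    · simp
    · rw [(zc g.1).eq, mul_inv_cancel_right]; exact mem_zpowers z⟩
  let H1 : Subgroup X1 := stabilizer X1 a ⊓ stabilizer X1 b
  have YH : Y ≤ H1 := fun y hy => ⟨yt _ hy a, yt _ hy b⟩
  have cH : Nat.card H1 = Nat.card Y * (Y.subgroupOf H1).index := by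
    rw [← (Y.subgroupOf H1).card_mul_index, Nat.card_congr (subgroupOfEquivOfLe YH).toEquiv]
  have eo : Odd (Y.subgroupOf H1).index := by
    by_contra c
    have : Fact (Nat.Prime 2) := ⟨Nat.prime_two⟩
    obtain ⟨q, hq⟩ := exists_prime_orderOf_dvd_card' (G := H1 ⧸ Y.subgroupOf H1) 2
      (even_iff_two_dvd.1 (Nat.not_odd_iff_even.1 c))
    obtain ⟨h, rfl⟩ := QuotientGroup.mk_surjective q
    have q1 : h.1.1 ∉ zpowers z := fun e => by
      rw [(QuotientGroup.eq_one_iff h).2 e, orderOf_one] at hq; omega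
    have q2 : h.1.1 * h.1.1 ∈ zpowers z := by
      have := pow_orderOf_eq_one (h : H1 ⧸ Y.subgroupOf H1)
      rw [hq, pow_two, ← QuotientGroup.mk_mul, QuotientGroup.eq_one_iff] at this
      exact this
    have q3 := hev _ h.1.2 h.2.1 h.2.2
    rw [sg _ q2, show {u : Φ | h.1.1 • u = u} = {a, b} from Set.ext fun u => ⟨fun hu => by
      by_contra d
      rw [Set.mem_insert_iff, Set.mem_singleton_iff, not_or] at d
      exact q1 (three _ u h.2.1 h.2.2 d.1 d.2 hu), by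
      rintro (rfl | rfl)
      exacts [h.2.1, h.2.2]⟩, Set.ncard_pair ab, Odd.neg_one_pow (by rw [Nat.odd_iff]; omega)] at q3
    exact absurd q3 (by decide)
  have f2 : f * f ∈ X1 := hk (by rw [MonoidHom.mem_ker, map_mul, Int.units_mul_self])
  have e4 : f ^ 4 = (f * f) ^ 2 := by rw [← pow_two, ← pow_mul]
  have fX : f ^ 4 ∈ X1 := e4 ▸ pow_mem f2 2
  have fix : ∀ (m : ℕ) (u : Φ), f • u = u → f ^ m • u = u := fun m u hu =>
    pow_mem (show f ∈ stabilizer X u from hu) m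
  have fe : (f ^ 4) ^ (Y.subgroupOf H1).index = 1 := by
    have := pow_card_eq_one' (G := H1) (x := ⟨⟨f * f, f2⟩,
      show (f * f) • a = a by rw [mul_smul, fa, fa], show (f * f) • b = b by rw [mul_smul, fb, fb]⟩)
    rw [cH, cY, pow_mul] at this
    rw [e4]
    exact congrArg (fun t => t.1.1) this
  have ny : ∀ (g : X) (m : ℕ), Odd m → g ^ m = 1 → g ∈ zpowers z → g = 1 := fun g m hm h hg =>
    eq_one_of_odd hm h (by rcases mz g hg with rfl | rfl; exacts [one_mul _, z2])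
  have sw : ∀ t : X, t • a = b → t • b = a → t * f ^ 4 * t⁻¹ * (f ^ 4)⁻¹ ∉ zpowers z :=
    fun t h1 h2 h => by
      rcases mz _ h with e | e
      · exact f4 (eq_one_of_odd eo fe (inv t h1 h2 (mul_inv_eq_one.1 e)))
      · have k : (t * f ^ 4 * t⁻¹) ^ (Y.subgroupOf H1).index = 1 := by rw [conj_pow, fe]; group
        rw [mul_inv_eq_iff_eq_mul.1 e, (zc _).symm.mul_pow, fe, mul_one] at k
        exact z1 (eq_one_of_odd eo k z2)
  obtain ⟨F, _, _, -, φ, -, hφ⟩ := (H31.ElZa.za (X := X1) (Ω := Φ) Y a b ⟨f ^ 4, fX⟩ _ nY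
    (fun y hy u => yt _ hy u)
    (fun c d c' d' h h' => by
      obtain ⟨g, hg, g1, g2⟩ := htr c d h
      obtain ⟨g', hg', g1', g2'⟩ := htr c' d' h'
      refine ⟨⟨g' * g⁻¹, mul_mem hg' (inv_mem hg)⟩, ?_, ?_⟩
      · change (g' * g⁻¹) • c = c'
        rw [← g1, mul_smul, inv_smul_smul, g1']
      · change (g' * g⁻¹) • d = d'
        rw [← g2, mul_smul, inv_smul_smul, g2'])
    (fun g u v w h1 h2 h3 k1 k2 k3 => by
      obtain ⟨t, rfl, rfl⟩ := tr u v h1
      have m : ∀ r : Φ, g • t • r = t • r → (t⁻¹ * g.1 * t) • r = r := fun r hr => by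
        rw [mul_smul, mul_smul, inv_smul_eq_iff]; exact hr
      have := three (t⁻¹ * g.1 * t) (t⁻¹ • w) (m a k1) (m b k2)
        (fun e => h3 (by rw [← e, smul_inv_smul])) (fun e => h2 (by rw [← e, smul_inv_smul]))
        (m _ (by rw [smul_inv_smul]; exact k3))
      change g.1 ∈ zpowers z
      rcases mz _ this with e | e
      · rw [show g.1 = t * (t⁻¹ * g.1 * t) * t⁻¹ by group, e]; simp
      · rw [show g.1 = t * (t⁻¹ * g.1 * t) * t⁻¹ by group, e, (zc t).eq, mul_inv_cancel_right]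
        exact mem_zpowers z)
    (by omega) ab (fix 4 a fa) (fix 4 b fb) (fun h => f4 (ny _ _ eo fe h))
    (fun t h1 h2 => sw t.1 h1 h2) cH).2 eo (by rw [Nat.even_iff]; omega)
  have kX : k ∈ X1 := hk (so k n hn kn)
  have sX : s ∈ X1 := hk ss
  have := psl_comm (a := φ ⟨k, kX⟩) (b := φ ⟨s, sX⟩) (c := φ ⟨f ^ 4, fX⟩) hn
    (fun e => k1 (ny k n hn kn ((hφ _).1 e)))
    (by rw [← map_pow, show (⟨k, kX⟩ : X1) ^ n = 1 from Subtype.ext kn, map_one])
    (Commute.map (show Commute (⟨k, kX⟩ : X1) ⟨s, sX⟩ from Subtype.ext ks.eq) φ)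
    (Commute.map (show Commute (⟨k, kX⟩ : X1) ⟨f ^ 4, fX⟩ from Subtype.ext (kf.pow_right 4).eq) φ)
  refine sw s sa sb ((hφ (⟨s, sX⟩ * ⟨f ^ 4, fX⟩ * (⟨s, sX⟩ : X1)⁻¹ * (⟨f ^ 4, fX⟩ : X1)⁻¹)).1 ?_)
  rw [map_mul, map_mul, map_mul, map_inv, map_inv, this.eq]
  group

open Cfsg.Agent.H11.Cy Cfsg.Agent.H11.Cy.Lp
open Cfsg.Agent.H11.EL (Nm Ct C1 Ex)

theorem b2 (b0 : B0Stmt) : B2Stmt := by
  intro G _ _ Ω _ _ p A st l2 p1 p7 x y hxy ko h4
  by_contra hK
  obtain ⟨k, hk, k1⟩ := (Subgroup.ne_bot_iff_exists_ne_one.1 hK).imp fun k h => And.intro k.2 h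
  obtain ⟨f, s, lc⟩ := l2.lc x y hxy
  have lt := l2.lt x y hxy f s lc
  have la := l2.la x y hxy
  have ep := l2.mc.ep
  have fo := lc.fo
  have zo : orderOf (f ^ (orderOf f / 2)) = 2 := orderOf_pow_orderOf_div (by omega) (by omega)
  have zH : f ^ (orderOf f / 2) ∈ Hs G x y := pow_mem lc.fH _
  have zs : Commute s (f ^ (orderOf f / 2)) := by
    have h1 : s * f ^ (orderOf f / 2) * s⁻¹ = (f ^ (orderOf f / 2))⁻¹ := by
      rw [← conj_pow, lc.sf, inv_pow]
    have h2 : (f ^ (orderOf f / 2))⁻¹ = f ^ (orderOf f / 2) :=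
      inv_eq_of_mul_eq_one_right ((pow_two _).symm.trans (orderOf_dvd_iff_pow_eq_one.1 zo.dvd))
    exact mul_inv_eq_iff_eq_mul.1 (h1.trans h2)
  generalize f ^ (orderOf f / 2) = z at zo zH zs
  obtain ⟨-, zL, HC, tr, h4', un⟩ := b0 G Ω p A st l2 p1 x y hxy ko z zH zo
  have z1 : z ≠ 1 := fun e => by rw [e, orderOf_one] at zo; omega
  have cz : ∀ {g : G}, g ∈ C1 z ↔ Commute g z := mem_centralizer_singleton_iff
  have KH : Kl A x y ≤ Hs G x y := fun g hg =>
    ⟨(ep.kfix x y hxy g).1 hg x la.mx, (ep.kfix x y hxy g).1 hg y la.my⟩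
  let S : SubMulAction (C1 z) Ω :=
    { carrier := fixedBy Ω z
      smul_mem' := fun g u hu => by
        change z • g.1 • u = g.1 • u
        rw [← mul_smul, ← (cz.1 g.2).eq, mul_smul, show z • u = u from hu] }
  have th : ∀ g ∈ Hs G x y, ∀ u, u ≠ x → u ≠ y → z • u = u → g • u = u → g ∈ zpowers z := by
    intro g hg u ux uy zu gu
    have nb : ∀ t ∈ Hs G x y, t • u = u → t ∈ Kl A x y ∨ Ex t (A x) (-1) := fun t ht tu => by
      rcases lt.small t ht with h | h | h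
      exacts [Or.inl h, Or.inr h, absurd (l2.two x t ht.1 h u y ux hxy.symm tu ht.2) uy]
    have zK : z ∉ Kl A x y := fun h => z1 (la.ctr z zL h)
    have nk : ∀ t ∈ Kl A x y, t • u = u → t = 1 := fun t ht tu => by
      by_contra t1
      exact zK (la.three z x la.mx y la.my u (l2.ti p7 x y hxy t ht t1 u tu) hxy uy.symm ux.symm
        zH.1 zH.2 zu)
    rcases nb g hg gu with h | h
    · rw [nk g h gu]; exact one_mem _
    · have h' := (nb z zH zu).resolve_left zK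
      have := nk (g * z) (ep.eps x y hxy _ (mul_mem hg zH) fun a ha => by
        have e : g * z * a * (g * z)⁻¹ = a := by
          calc g * z * a * (g * z)⁻¹ = g * (z * a * z⁻¹) * g⁻¹ := by group
            _ = a := by rw [h' a ha, h _ (zpow_mem ha _)]; simp
        exact (mul_inv_eq_iff_eq_mul.1 e).symm) (by rw [mul_smul, zu, gu])
      rw [eq_inv_of_mul_eq_one_left this]
      exact inv_mem (mem_zpowers z)
  have fix : ∀ g : C1 z, g.1 ∈ zpowers z → g ∈ zpowers (⟨z, cz.2 (Commute.refl z)⟩ : C1 z) := by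
    rintro g ⟨m, hm⟩
    exact ⟨m, Subtype.ext (by simpa using hm)⟩
  refine core (X := C1 z) (Φ := S) (z := ⟨z, cz.2 (Commute.refl z)⟩) (f := ⟨f, HC lc.fH⟩)
    (s := ⟨s, cz.2 zs⟩) (k := ⟨k.1, HC (KH hk)⟩) (a := ⟨x, zH.1⟩) (b := ⟨y, zH.2⟩)
    (n := Nat.card (Kl A x y)) ((orderOf_coe _).symm.trans zo)
    (fun g => Subtype.ext (cz.1 g.2).eq) (fun u => Subtype.ext u.2) (fun c d h => ?_)
    (fun g u h1 h2 h3 h4 h5 => fix g (th g.1 ⟨congrArg Subtype.val h1, congrArg Subtype.val h2⟩ u.1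
      (fun e => h3 (Subtype.ext e)) (fun e => h4 (Subtype.ext e)) u.2 (congrArg Subtype.val h5)))
    (h4' h4) (fun e => hxy (congrArg Subtype.val e)) (Subtype.ext lc.fH.1) (Subtype.ext lc.fH.2)
    (fun e => ?_) (fun t h1 h2 h3 => Subtype.ext ?_)
    (Subtype.ext (show s * s = 1 by rw [← pow_two, ← lc.so, pow_orderOf_eq_one]))
    (Subtype.ext lc.sx) (Subtype.ext lc.sy) (fun u e => ?_)
    (fun e => k1 (Subtype.ext (congrArg (fun t : C1 z => t.1) e))) ko
    (Subtype.ext (congrArg (fun t : Kl A x y => t.1) (pow_card_eq_one' (x := k))))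
    (Subtype.ext (hk s lc.sL).symm) (Subtype.ext (hk f lc.fL).symm)
  · obtain ⟨g, hg, h1, h2⟩ := tr x zH.1 y zH.2 c.1 c.2 d.1 d.2 hxy fun e => h (Subtype.ext e)
    exact ⟨⟨g, hg⟩, Subtype.ext h1, Subtype.ext h2⟩
  · have h1 := Nat.le_of_dvd (by norm_num)
      (orderOf_dvd_of_pow_eq_one (show f ^ 4 = 1 from congrArg Subtype.val e))
    have : p = 9 := by omega
    exact absurd (this ▸ st.pp) (by norm_num)
  · have h := lt.inv t.1 (congrArg Subtype.val h1) (congrArg Subtype.val h2) _ (pow_mem lc.fH 4)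
    rw [show t.1 * f ^ 4 * t.1⁻¹ = f ^ 4 from congrArg Subtype.val h3] at h
    exact la.ctr _ (mul_mem (pow_mem lc.fL 4) (pow_mem lc.fL 4)) h
  · have := un u.1 s (congrArg Subtype.val e) z u.2 lc.so zo zs
    exact hxy ((show z • x = x from zH.1).symm.trans (this ▸ lc.sx))

end Cfsg.Agent.H27.LpB2a
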