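import Cfsg.Agent.H54.O84Defs

/-! Project O84: the normaliser of the torus acts through the Weyl group. -/

set_option autoImplicit false
set_option maxRecDepth 100000

namespace Cfsg.Agent.H27.O84Nu1

open Cfsg.Agent.H54.O84 Equiv Cfsg.Lie H37 H40 H34 H29 Multiplicative
open scoped Matrix

theorem eq_of_dot {u v : V} (h : ∀ y : V, y ⬝ᵥ u = y ⬝ᵥ v) : u = v := funext fun k => by
  simpa using h (Pi.single k 1)

theorem nu1 : Nu1Stmt := by
  intro F ζ a T g hg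
  have inj : ∀ {s t : ZMod 5}, ζ ^ s.val = ζ ^ t.val → s = t := fun {s t} h =>
    ZMod.val_injective 5 (T.prim.pow_inj (ZMod.val_lt s) (ZMod.val_lt t) h)
  have hH : ∀ x, F.j (a x) ∈ P8.H := fun x => by
    obtain ⟨c, e, -⟩ := T.lab x.toAdd
    exact e ▸ Cert.tg_mem_H c
  have nm : ∀ g ∈ Nz a, ∀ h ∈ F.j '' a.range, F.j g * h * (F.j g)⁻¹ ∈ F.j '' a.range := by
    rintro g hg _ ⟨x, hx, rfl⟩
    exact ⟨_, (Subgroup.mem_normalizer_iff.1 hg x).1 hx, by simp only [map_mul, map_inv]⟩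
  have hN : F.j g ∈ P8.N := by
    refine Split.mem_N_of_normalizes C8.free (Q := F.j '' a.range) ?_ (fun r hr => ?_) (nm g hg) ?_
    · rintro _ ⟨_, ⟨x, rfl⟩, rfl⟩
      exact hH x
    · refine m_ne_zero r (eq_of_dot fun x => inj ?_)
      obtain ⟨c, e, hc⟩ := T.lab x
      rw [← hc, dotProduct_zero, ZMod.val_zero, pow_zero]
      exact C8.commute_tg_iff.1 (e ▸ hr _ ⟨_, ⟨_, rfl⟩, rfl⟩)
    · simpa only [map_inv, inv_inv] using nm _ (inv_mem hg)
  have act : ∀ x y : V, g * a (ofAdd x) * g⁻¹ = a (ofAdd y) →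
      ∀ r, y ⬝ᵥ m (F.ν g r) = x ⬝ᵥ m r := fun x y e r => by
    obtain ⟨c, e1, hc⟩ := T.lab x
    obtain ⟨d, e2, hd⟩ := T.lab y
    have := (((C8.idTw (k := K)).conj hN).map_tg_iff (c := c) (d := d)).1 (by
      show F.j g * C8.tg K c * (F.j g)⁻¹ = C8.tg K d
      rw [← e1, ← e2, ← e, map_mul, map_mul, map_inv]) r
    refine inj ?_
    rw [← hc, ← hd]
    exact Units.ext this
  refine ⟨hN, mem_CW.2 ⟨P8.ν_mem _ hN, Equiv.ext fun r => m_inj (eq_of_dot fun y => ?_)⟩,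
    ⟨fun h => T.surj g (Split.mem_H_of hN h), ?_⟩, act⟩
  · obtain ⟨x, hx⟩ := (Subgroup.mem_normalizer_iff.1 (inv_mem hg) _).1 ⟨ofAdd y, rfl⟩
    have e : g * a (ofAdd x.toAdd) * g⁻¹ = a (ofAdd y) := by
      rw [ofAdd_toAdd, hx]; group
    rw [Perm.mul_apply, Perm.mul_apply, act _ _ e, m_w, m_w, dotProduct_smul, dotProduct_smul,
      act _ _ e]
  · rintro ⟨x, rfl⟩
    exact Split.ν_H (hH x)

end Cfsg.Agent.H27.O84Nu1
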