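import Cfsg.Agent.H74.RuDefs

/-!
Project RU: two chambers of a unitary space lie in a common apartment.
-/

set_option autoImplicit false

namespace Cfsg.Agent.H27.RuCf

open Cfsg Module Cfsg.Agent.H31 Cfsg.Agent.H74.Ru

variable {F V : Type} [Field F] [Fintype F] [AddCommGroup V] [Module F V]

omit [Fintype F] in
theorem fl_le {n : ℕ} {c c' : Fin n → V} (h : ∀ l, ∃ t : F, c' l = t • c l) (i : ℕ) :
    Fl F c' i ≤ Fl F c i := by
  refine Submodule.span_le.2 ?_
  rintro _ ⟨l, hl, rfl⟩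
  obtain ⟨t, e⟩ := h l
  rw [e]
  exact Submodule.smul_mem _ _ (Submodule.subset_span ⟨l, hl, rfl⟩)

theorem scale (S : Un F V) {c : Fin S.n → V} (hc : S.Fr c) (b : Fin S.n) {m : F} (hm : m ≠ 0)
    (hb : b = b.rev → S.σ m * m = 1) : ∃ c', S.Fr c' ∧ (∀ i, Fl F c' i = Fl F c i) ∧
      c' b = m • c b ∧ ∀ l, l ≠ b → l ≠ b.rev → c' l = c l := by
  have hs : S.σ m ≠ 0 := (map_ne_zero S.σ).2 hm
  obtain ⟨t, t1, t2, t3⟩ : ∃ t : Fin S.n → F, (∀ l, S.σ (t l) * t l.rev = 1) ∧ t b = m ∧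
      ∀ l, l ≠ b → l ≠ b.rev → t l = 1 := by
    refine ⟨fun l => if l = b then m else if l = b.rev then (S.σ m)⁻¹ else 1, fun l => ?_,
      if_pos rfl, fun l h1 h2 => by simp only [if_neg h1, if_neg h2]⟩
    by_cases h1 : l = b
    · subst h1
      by_cases h2 : l.rev = l
      · simp only [if_pos h2, if_true, hb h2.symm]
      · simp only [if_neg h2, if_true, mul_inv_cancel₀ hs]
    by_cases h2 : l = b.rev
    · subst h2
      simp only [if_neg h1, if_true, Fin.rev_rev, map_inv₀, S.herm.inv.invol, inv_mul_cancel₀ hm]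
    · simp only [if_neg h1, if_neg h2, if_neg fun x : l.rev = b => h2 (Fin.rev_eq_iff.1 x),
        if_neg fun x : l.rev = b.rev => h1 (Fin.rev_injective x), map_one, mul_one]
  refine ⟨fun l => t l • c l, fun i j => ?_, fun i => le_antisymm (fl_le (fun l => ⟨_, rfl⟩) i)
    (fl_le (fun l => ⟨(t l)⁻¹, ?_⟩) i), by simp only [t2], fun l h1 h2 => by
      simp only [t3 l h1 h2, one_smul]⟩
  · rw [smul_left, smul_right, hc]
    split_ifs with h
    · rw [h, mul_one, t1]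
    · rw [mul_zero, mul_zero]
  · have : t l ≠ 0 := fun x => by simpa [x] using t1 l
    rw [smul_smul, inv_mul_cancel₀ this, one_smul]

/-- Frames for the two chambers which share the first `s` pairs. -/
def PS (S : Un F V) (v w : Fin S.n → V) (s : ℕ) : Prop := ∃ c c', S.Fr c ∧ S.Fr c' ∧
  (∀ i, Fl F c i = Fl F v i) ∧ (∀ i, Fl F c' i = Fl F w i) ∧
  ∀ i : Fin S.n, i.val < s → ∃ j, c i = c' j ∧ c i.rev = c' j.rev

theorem step [FiniteDimensional F V] (ka : KaStmt) (cf0 : Cf0Stmt) (S : Un F V)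
    {v w : Fin S.n → V} (a : Fin S.n) (h : PS S v w a.val) : PS S v w (a.val + 1) := by
  classical
  obtain ⟨c, c', hc, hc', fc, fc', hm⟩ := h
  have ext : ∀ {d d' : Fin S.n → V}, (∀ i : Fin S.n, i < a → ∃ j, d i = d' j ∧ d i.rev = d' j.rev) →
      (∃ j, d a = d' j ∧ d a.rev = d' j.rev) →
      ∀ i : Fin S.n, i.val < a.val + 1 → ∃ j, d i = d' j ∧ d i.rev = d' j.rev := by
    intro d d' h1 h2 i hi
    rcases (Nat.lt_succ_iff.1 hi).lt_or_eq with x | x
    · exact h1 i x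
    · rwa [Fin.ext x]
  rcases lt_or_ge a.rev a with ha | ha
  · obtain ⟨j, e1, e2⟩ := hm _ ha
    rw [Fin.rev_rev] at e2
    exact ⟨c, c', hc, hc', fc, fc', ext hm ⟨j.rev, e2, by rw [Fin.rev_rev, e1]⟩⟩
  obtain ⟨exp, -⟩ := ka S c hc
  obtain ⟨exp', fl', -⟩ := ka S c' hc'
  obtain ⟨j, hj, mx⟩ : ∃ j : Fin S.n, S.B (c' j.rev) (c a) ≠ 0 ∧
      ∀ l, j < l → S.B (c' l.rev) (c a) = 0 := by
    have ne : (Finset.univ.filter fun j : Fin S.n => S.B (c' j.rev) (c a) ≠ 0).Nonempty := by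
      by_contra hn
      have h0 : c a = 0 := by
        rw [exp' (c a)]
        refine Finset.sum_eq_zero fun l _ => ?_
        rw [not_not.1 fun x => hn ⟨l, Finset.mem_filter.2 ⟨Finset.mem_univ _, x⟩⟩, zero_smul]
      have := hc a a.rev
      rw [h0, zero_left, if_pos rfl] at this
      exact zero_ne_one this
    refine ⟨_, (Finset.mem_filter.1 (Finset.max'_mem _ ne)).2, fun l hl => not_not.1 fun x => ?_⟩
    exact absurd (Finset.le_max' _ l (Finset.mem_filter.2 ⟨Finset.mem_univ _, x⟩)) (not_le.2 hl)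
  have n1 : ∀ i, i < a → S.B (c i) (c a) = 0 ∧ S.B (c i.rev) (c a) = 0 := fun i hi =>
    ⟨(hc _ _).trans (if_neg fun x => absurd (hi.trans_le ha) (by rw [x, Fin.rev_rev]; simp)),
      (hc _ _).trans (if_neg fun x => hi.ne' (x.trans (Fin.rev_rev i)))⟩
  have n2 : ∀ i, i < a → ∀ k, c i = c' k → c i.rev = c' k.rev → k ≠ j.rev ∧ k ≠ j :=
    fun i hi k e1 e2 => ⟨fun x => hj (by rw [← x, ← e1, (n1 i hi).1]),
      fun x => hj (by rw [← x, ← e2, (n1 i hi).2])⟩
  have n3 : ∀ i, i < a → S.B (c i) (c' j.rev) = 0 ∧ S.B (c i.rev) (c' j.rev) = 0 := fun i hi => by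
    obtain ⟨k, e1, e2⟩ := hm i hi
    obtain ⟨k1, k2⟩ := n2 i hi k e1 e2
    rw [e1, e2, hc', hc', if_neg fun x => k2 (Fin.rev_injective x).symm,
      if_neg fun x => k1 (x.trans (Fin.rev_rev k)).symm]
    exact ⟨rfl, rfl⟩
  have hμ : S.B (c a) (c' j.rev) ≠ 0 := S.herm.flip_ne_zero hj
  rcases ha.eq_or_lt with ha' | ha'
  · have e : c' j.rev = S.B (c a) (c' j.rev) • c a := by
      conv_lhs => rw [exp (c' j.rev)]
      rw [Finset.sum_eq_single a, ← ha']
      · intro l _ hl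
        rcases lt_or_gt_of_ne hl with x | x
        · rw [(n3 l x).2, zero_smul]
        · rw [(n3 l.rev (by rw [ha']; exact Fin.rev_lt_rev.2 x)).1, zero_smul]
      · exact fun x => absurd (Finset.mem_univ _) x
    have e2 : S.B (c' j.rev) (c' j.rev) =
        S.σ (S.B (c a) (c' j.rev)) * S.B (c a) (c' j.rev) := by
      conv_lhs => rw [e, smul_left, smul_right, hc, if_pos ha', mul_one]
    have jj : j.rev = j := by
      by_contra x
      rw [hc', Fin.rev_rev, if_neg x] at e2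
      exact mul_ne_zero ((map_ne_zero S.σ).2 hμ) hμ e2.symm
    rw [hc', Fin.rev_rev, if_pos jj] at e2
    obtain ⟨d, hd, fd, d1, d2⟩ := scale S hc' j.rev (inv_ne_zero hμ) fun _ => by
      rw [map_inv₀, ← mul_inv, ← e2, inv_one]
    have d3 : c a = d j.rev := by
      rw [d1, eq_comm, inv_smul_eq_iff₀ hμ]; exact e
    refine ⟨c, d, hc, hd, fc, fun i => (fd i).trans (fc' i), ext (fun i hi => ?_)
      ⟨j.rev, d3, by rw [← ha', Fin.rev_rev, d3, jj]⟩⟩
    obtain ⟨k, e1, e2⟩ := hm i hi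
    obtain ⟨k1, k2⟩ := n2 i hi k e1 e2
    exact ⟨k, by rw [d2 k k1 (by rwa [Fin.rev_rev]), e1], by
      rw [d2 _ (fun x => k2 (Fin.rev_injective x)) fun x => k1 (Fin.rev_injective x), e2]⟩
  have xx : S.B (c a) (c a) = 0 := (hc _ _).trans (if_neg ha'.ne)
  have jj : j.rev ≠ j.rev.rev := fun x => by
    rw [Fin.rev_rev] at x
    have : S.B (c a) (c a) = S.B (c' j.rev) (c a) * S.B (c a) (c' j.rev) := by
      refine (congrArg (S.B (c a)) (exp' (c a))).trans ?_
      rw [map_sum, Finset.sum_eq_single j, smul_right, x]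
      · intro l _ hl
        rw [smul_right]
        rcases lt_or_gt_of_ne hl with y | y
        · have := mx l.rev (by rw [← x]; exact Fin.rev_lt_rev.2 y)
          rw [Fin.rev_rev] at this
          rw [S.herm.flip_zero this, mul_zero]
        · rw [mx l y, zero_mul]
      · exact fun x => absurd (Finset.mem_univ _) x
    exact mul_ne_zero hj hμ (this.symm.trans xx)
  obtain ⟨d, hd, fd, d1, d2⟩ := scale S hc' j.rev (inv_ne_zero hμ) fun x => absurd x jj
  have xy : S.B (c a) (d j.rev) = 1 := by rw [d1, smul_right, inv_mul_cancel₀ hμ]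
  obtain ⟨u, hu, tu, u1, u2, u3⟩ := cf0 S c hc a ha'.ne (d j.rev) ((hd _ _).trans (if_neg jj)) xy
    (((ka S c hc).2.1 _ _).2 fun l hl => by
      rw [d1, smul_right, (n3 l.rev (Fin.rev_lt_iff.2 hl)).1, mul_zero])
  obtain ⟨u', hu', tu', u1', u2', u3'⟩ := cf0 S d hd j.rev jj (c a) xx (S.herm.flip_one xy)
    (by rw [fd, Fin.rev_rev]; exact (fl' _ _).2 mx)
  rw [Fin.rev_rev] at u2' u3'
  refine ⟨fun i => u (c i), fun i => u' (d i), (ka S c hc).2.2.2.1 u (sisom_le_isom hu),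
    (ka S d hd).2.2.2.1 u' (sisom_le_isom hu'),
    fun i => ((ka S c hc).2.2.2.2.2.2.2.1 u _ tu i).2.trans (fc i),
    fun i => ((ka S d hd).2.2.2.2.2.2.2.1 u' _ tu' i).2.trans ((fd i).trans (fc' i)),
    ext (fun i hi => ?_) ⟨j, u1.trans u2'.symm, u2.trans u1'.symm⟩⟩
  obtain ⟨k, e1, e2⟩ := hm i hi
  obtain ⟨k1, k2⟩ := n2 i hi k e1 e2
  rw [← d2 k k1 (by rwa [Fin.rev_rev])] at e1
  rw [← d2 _ (fun x => k2 (Fin.rev_injective x)) fun x => k1 (Fin.rev_injective x)] at e2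
  refine ⟨k, ?_, ?_⟩
  · rw [u3 i (hi.trans ha').ne (by rw [d1, smul_right, (n3 i hi).1, mul_zero]),
      u3' k k2 (by rw [← e1, (n1 i hi).1]), e1]
  · rw [u3 _ (fun x => hi.ne (Fin.rev_injective x)) (by rw [d1, smul_right, (n3 i hi).2, mul_zero]),
      u3' _ (fun x => k1 (Fin.rev_eq_iff.1 x)) (by rw [← e2, (n1 i hi).2]), e2]

theorem cf (ka : KaStmt) (cf0 : Cf0Stmt) : CfStmt := by
  intro F V _ _ _ _ _ S v w hv hw
  have all : ∀ s, s ≤ S.n → PS S v w s := fun s => by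
    induction s with
    | zero => exact fun _ => ⟨v, w, hv, hw, fun _ => rfl, fun _ => rfl, fun _ h => absurd h (by omega)⟩
    | succ s ih => exact fun h => step ka cf0 S ⟨s, h⟩ (ih (by omega))
  obtain ⟨c, c', hc, hc', fc, fc', hm⟩ := all _ le_rfl
  choose ρ h1 h2 using fun i => hm i i.2
  have inj : Function.Injective ρ := fun i i' e =>
    (ka S c hc).2.2.1.injective (by rw [h1, h1, e])
  let π := Equiv.ofBijective ρ (Finite.injective_iff_bijective.1 inj)
  have hπ : ∀ l, ρ (π.symm l) = l := π.apply_symm_apply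
  refine ⟨c, π.symm, hc, fun l => inj ?_, fc, fun i => ?_⟩
  · rw [hπ, (ka S c' hc').2.2.1.injective ((h1 _).symm.trans (h2 _)), hπ]
  · simp only [h1, hπ, fc']

end Cfsg.Agent.H27.RuCf
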