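import Cfsg.Agent.H74.RuDefs

/-!
Project RU: two points all of whose lines are good give a special unitary group in dimension three.
-/

set_option autoImplicit false

namespace Cfsg.Agent.H27.RuEn1

open Cfsg Module Cfsg.Agent.H31 Cfsg.Agent.H74.Ru

theorem en1 (tvs : TvsStmt) : En1Stmt := by
  intro F V _ _ _ _ _ S K hK x x' hx hx' hb
  have hM : K ≤ isom S.B := hK.trans sisom_le_isom
  have hs := S.herm.toIsHermSymm
  have hp : HypPair S.B x ((S.B x x')⁻¹ • x') :=
    ⟨hx.2.1, by rw [smul_left, smul_right, hx'.2.1, mul_zero, mul_zero],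
      by rw [smul_right, inv_mul_cancel₀ hb]⟩
  have tf := (tvs S K hK x' hx').1.smul hs (S.B x x')⁻¹
  generalize (S.B x x')⁻¹ • x' = f at hp tf
  obtain ⟨tx, h⟩ := tvs S K hK x hx
  obtain ⟨w, c, g, hg, he, h1, h2, h3⟩ := h f hp
  have e := he.apply_f hp.hef (hs.flip_zero h2)
  have e1 : S.B f (g f) = c := by
    rw [e, map_add, map_add, smul_right, hp.hf, h2, hs.flip_one hp.hef, mul_one, add_zero, zero_add]
  have e2 : S.B (g f) x = 1 := hs.flip_one (by
    rw [e, map_add, map_add, smul_right, hp.hef, h1, hp.he, mul_zero, add_zero, add_zero])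
  obtain ⟨E, m1, -, -, nd, d3, hE⟩ := S.herm.hasTv_of_triple hM hp.he hp.hf
    ((hM hg f f).trans hp.hf) tx tf (tf.map (hM hg) hg) (by
      rw [e1, e2, hp.hef, one_mul, mul_one]
      exact fun z => h3 (by linear_combination he.cond hs hp h1 (hM hg) - z))
  exact ⟨E, nd, d3, m1, fun k hk => S.herm.mem_of_hasTv nd nd le_rfl hE
    (.inr (.inl (exists_fixed_ne S.hF S.hσ (by have := S.hq; omega)))) hk.1 hk.2⟩

end Cfsg.Agent.H27.RuEn1
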