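import Cfsg.Agent.H56.SpDefs

/-! Project CY, chapter SP: the centraliser of the involution of a line group. -/

set_option autoImplicit false

namespace Cfsg.Agent.H27.SpCz

open Subgroup MulAction Cfsg.Agent.H11.Cy Cfsg.Agent.H56.Sp
open Cfsg.Agent.H45.Iv (Fx Sub Ms)

theorem cz : CzStmt := by
  intro G _ _ Ω _ _ p A st p2 ep lf fz
  have cj : ∀ (g : G) x y z, IsZ A x y z → IsZ A (g • x) (g • y) (g * z * g⁻¹) := fun g x y z h => by
    have : Fl A x y ≤ (Fl A (g • x) (g • y)).comap (MulAut.conj g).toMonoidHom :=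
      sup_le (fun a ha => mem_sup_left (st.eqv g x a ha)) (fun a ha => mem_sup_right (st.eqv g y a ha))
    refine ⟨this h.1, fun e => h.2.1 (conj_eq_one_iff.1 e), ?_⟩
    rw [conj_mul, h.2.2]
    simp
  have c1 : ∀ x y, x ≠ y → ∀ z, IsZ A x y z → centralizer ({z} : Set G) = Nl A x y :=
    fun x y hxy z h => by
      ext g
      rw [mem_centralizer_singleton_iff]
      refine ⟨fun hg => (ep.nrm x y hxy g).2 fun c hc => ?_, fun hg => ?_⟩
      · rw [← fz x y hxy z h] at hc ⊢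
        change z • g • c = g • c
        rw [← mul_smul, ← hg, mul_smul, show z • c = c from hc]
      · refine mul_inv_eq_iff_eq_mul.1 ((lf x y hxy).uq _ _ ⟨(mem_normalizer_iff.1 hg z).1 h.1,
          fun e => h.2.1 (conj_eq_one_iff.1 e), ?_⟩ h)
        rw [conj_mul, h.2.2]
        simp
  have same : ∀ x y, x ≠ y → ∀ z, IsZ A x y z → ∀ u, Iv A u → ∀ c ∈ Ln A x y, ∀ c' ∈ Ln A x y,
      c ≠ c' → u • c = c → u • c' = c' → u = z := by
    rintro x y hxy z h u ⟨a, b, hab, hu⟩ c hc c' hc' hcc h1 h2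
    have e := fz a b hab u hu
    have e1 := ep.span a b hab c (e ▸ h1) c' (e ▸ h2) hcc
    exact (lf x y hxy).uq _ _ ⟨ep.span x y hxy c hc c' hc' hcc ▸ e1 ▸ hu.1, hu.2⟩ h
  have cen : ∀ x y, x ≠ y → ∀ k ∈ Kl A x y, ∀ w, k • w = w → k ∈ centralizer (A w : Set G) :=
    fun x y hxy k hk w hw => by
      have kx : k ∈ centralizer (A x : Set G) := fun a ha => hk a (mem_sup_left ha)
      by_cases c : x = w
      · exact c ▸ kx
      · exact fun a ha => ep.eps x w c k ⟨(ep.kfix x y hxy k).1 hk x (lf x y hxy).mem.1, hw⟩ kx a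
          (mem_sup_right ha)
  refine ⟨c1, fun x y hxy z h u hu uz cm => ?_, fun x y hxy z h b hb u hu => ⟨fun e => hb ?_, ?_⟩, cj,
    ?_, fun x y hxy k hk => ⟨fun a ha b hb hab c hc => ?_, (ep.kfix x y hxy k).1 hk, cen x y hxy k hk⟩⟩
  · have u2 : u * u = 1 := by obtain ⟨_, _, _, h⟩ := hu; exact h.2.2
    have uN : u ∈ Nl A x y := c1 x y hxy z h ▸ mem_centralizer_singleton_iff.2 cm
    have m := (lf x y hxy).mem
    refine ⟨⟨uN, by rw [u2]; exact one_mem _, fun hk => uz (same x y hxy z h u hu x m.1 y m.2 hxy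
      ((ep.kfix x y hxy u).1 hk x m.1) ((ep.kfix x y hxy u).1 hk y m.2))⟩, fun c hc e => uz ?_⟩
    have : Fact (Nat.Prime 2) := ⟨Nat.prime_two⟩
    let S : SubMulAction (zpowers u) Ω :=
      { carrier := Ln A x y
        smul_mem' := fun g _ hz => (ep.nrm x y hxy g).1 (zpowers_le.2 uN g.2) _ hz }
    have hS : Nat.card S = p + 1 := (lf x y hxy).ln
    have hp : IsPGroup 2 (zpowers u) := by
      rintro ⟨_, n, rfl⟩
      refine ⟨1, Subtype.ext ?_⟩
      change (u ^ n) ^ 2 ^ 1 = 1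
      rw [pow_one, ← zpow_natCast, ← zpow_mul, mul_comm, zpow_mul, zpow_natCast, pow_two, u2,
        one_zpow]
    obtain ⟨w, hw, hne⟩ := hp.exists_fixed_point_of_prime_dvd_card_of_fixed_point S
      (by rw [hS]; exact (st.pp.odd_of_ne_two p2).add_one.two_dvd) (a := ⟨c, hc⟩) (by
        rintro ⟨g, hg⟩
        exact Subtype.ext ((zpowers_le.2 (show u ∈ stabilizer G c from e)) hg))
    exact same x y hxy z h u hu c hc w.1 w.2 (fun d => hne (Subtype.ext d)) e
      (congrArg Subtype.val (hw ⟨u, mem_zpowers u⟩))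
  · have l := lf b (z • b) hb.symm
    have := (ep.kfix _ _ hb.symm u).1 (l.cen u hu) b l.mem.1
    rwa [e] at this
  · have k := cj z _ _ u hu
    rw [← mul_smul, h.2.2, one_smul] at k
    exact (mul_inv_eq_iff_eq_mul.1 ((lf b (z • b) hb.symm).uq _ _
      ⟨(sup_comm (A (z • b)) (A b)).le k.1, k.2⟩ hu)).symm
  · rintro t t' ⟨x, y, hxy, h⟩ ⟨x', y', hxy', h'⟩
    obtain ⟨g, -, rfl, rfl⟩ := st.two x trivial y trivial x' trivial y' trivial hxy hxy'
    exact isConj_iff.2 ⟨g, (lf _ _ hxy').uq _ _ (cj g x y t h) h'⟩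
  · exact (ep.kfix a b hab k).1 (ep.eps a b hab k ⟨ha, hb⟩ (cen x y hxy k hk a ha)) c hc

end Cfsg.Agent.H27.SpCz
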